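import Mathlib

set_option autoImplicit false

/-! S4994: chief series of a finite group, as a function on `ℕ`. -/

namespace Cfsg.Agent.Lib.S4994

universe u

variable {G : Type u} [Group G]

/-- A chief chain from a given normal subgroup up to the whole group. -/
theorem exists_chief_chain_from [Finite G] (K : Subgroup G) :
    K.Normal → ∃ (l : ℕ) (N : ℕ → Subgroup G), N 0 = K ∧ N l = ⊤ ∧ (∀ i, (N i).Normal) ∧
      (∀ i < l, N i < N (i + 1)) ∧
      (∀ i < l, ∀ M : Subgroup G, M.Normal → N i ≤ M → M ≤ N (i + 1) → M = N i ∨ M = N (i + 1)) := by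
  refine WellFoundedGT.induction (motive := fun K : Subgroup G => K.Normal → ∃ (l : ℕ) (N : ℕ → Subgroup G),
      N 0 = K ∧ N l = ⊤ ∧ (∀ i, (N i).Normal) ∧ (∀ i < l, N i < N (i + 1)) ∧
      (∀ i < l, ∀ M : Subgroup G, M.Normal → N i ≤ M → M ≤ N (i + 1) → M = N i ∨ M = N (i + 1))) K ?_
  intro K ih hK
  by_cases htop : K = ⊤
  · exact ⟨0, fun _ => ⊤, htop.symm, rfl, fun _ => inferInstance,
      fun i hi => absurd hi (Nat.not_lt_zero i), fun i hi => absurd hi (Nat.not_lt_zero i)⟩
  have hne : {M : Subgroup G | M.Normal ∧ K < M}.Nonempty :=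
    ⟨⊤, inferInstance, lt_top_iff_ne_top.2 htop⟩
  obtain ⟨M, hM⟩ := (Set.toFinite {M : Subgroup G | M.Normal ∧ K < M}).exists_minimal hne
  obtain ⟨hMn, hKM⟩ := hM.1
  obtain ⟨l, N, h0, hl, hn, hlt, hch⟩ := ih M hKM hMn
  refine ⟨l + 1, fun i => Nat.casesOn i K N, rfl, hl, ?_, ?_, ?_⟩
  · intro i
    cases i with
    | zero => exact hK
    | succ i => exact hn i
  · intro i hi
    cases i with
    | zero =>
      show K < N 0
      rw [h0]
      exact hKM
    | succ i => exact hlt i (Nat.lt_of_succ_lt_succ hi)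
  · intro i hi M' hM' h1 h2
    cases i with
    | zero =>
      have h2' : M' ≤ M := h0 ▸ h2
      have h1' : K ≤ M' := h1
      by_cases hK' : M' = K
      · exact Or.inl hK'
      · refine Or.inr ?_
        have hlt' : K < M' := lt_of_le_of_ne h1' (Ne.symm hK')
        have hmin := hM.2 (y := M') ⟨hM', hlt'⟩ h2'
        show M' = N 0
        rw [h0]
        exact le_antisymm h2' hmin
    | succ i => exact hch i (Nat.lt_of_succ_lt_succ hi) M' hM' h1 h2

theorem exists_chief_chain [Finite G] :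
    ∃ (l : ℕ) (N : ℕ → Subgroup G), N 0 = ⊥ ∧ N l = ⊤ ∧ (∀ i, (N i).Normal) ∧
      (∀ i < l, N i < N (i + 1)) ∧
      (∀ i < l, ∀ M : Subgroup G, M.Normal → N i ≤ M → M ≤ N (i + 1) → M = N i ∨ M = N (i + 1)) :=
  exists_chief_chain_from ⊥ inferInstance

end Cfsg.Agent.Lib.S4994
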