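import Mathlib
import Cfsg.Prelude.Def_Characters
import Cfsg.Agent.Lib.Char.DegreeDvd
import Cfsg.Agent.Lib.Char.Ortho
import Cfsg.Agent.Lib.Char.Basic

set_option autoImplicit false
set_option linter.unusedSectionVars false
set_option linter.unusedVariables false
set_option linter.style.haveILetI false

/-! S4994 piece A1: one step of the chain of normal subgroups. -/

namespace Cfsg.Agent.Lib.S4994

open Cfsg Cfsg.Agent.Lib.Char.Basic Cfsg.Agent.Lib.Char.Ortho
open scoped ComplexConjugate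

universe u

variable {G : Type u} [Group G]

theorem char_step (L M : Subgroup G) [L.Normal] [M.Normal] (hLM : L ≤ M) [Fintype L] [Fintype M]
    {φL : L → ℂ} {φM : M → ℂ} (hφL : IsIrrCharacter L φL) (hφM : IsIrrCharacter M φM)
    {e e' : ℕ} (he' : e' ≠ 0) (h : ∀ x : L, (e : ℂ) * φL x = e' * φM ⟨x, hLM x.2⟩) :
    ∃ f : ℕ, φM 1 = f * φL 1 ∧ f ∣ L.relIndex M ∧ f ^ 2 ≤ L.relIndex M := by
  classical
  let L₁ : Subgroup M := L.subgroupOf M
  haveI hL₁ : L₁.Normal := Subgroup.Normal.subgroupOf ‹_› M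
  letI : Fintype L₁ := Fintype.ofFinite _
  let eqv : L₁ ≃* L := Subgroup.subgroupOfEquivOfLe hLM
  let ψ : L₁ → ℂ := fun a => φL (eqv a)
  have hψ : IsIrrCharacter L₁ ψ :=
    isIrrCharacter_comp_surjective hφL eqv.toMonoidHom eqv.surjective
  have hval : ∀ a : L₁, (e : ℂ) * ψ a = e' * φM a := by
    intro a
    have := h (eqv a)
    have h3 : (⟨((eqv a : L) : G), hLM (eqv a).2⟩ : M) = (a : M) := Subtype.ext rfl
    rw [h3] at this
    exact this
  have he'C : (e' : ℂ) ≠ 0 := by exact_mod_cast he'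
  have hM1 := irr_apply_one_ne_zero hφM
  have hψ1 : ψ 1 ≠ 0 := irr_apply_one_ne_zero hψ
  have he : (e : ℂ) ≠ 0 := by
    intro h0
    have := hval 1
    rw [h0, zero_mul] at this
    have h2 : φM ((1 : L₁) : M) = φM 1 := rfl
    rw [h2] at this
    exact mul_ne_zero he'C hM1 this.symm
  have hres : ∀ a : L₁, φM a = ((e : ℂ) / e') * ψ a := by
    intro a
    have := hval a
    field_simp
    rw [mul_comm, this]
  have hinner : classInner (fun a : L₁ => φM a) ψ = (e : ℂ) / e' := by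
    have h1 : (fun a : L₁ => φM a) = ((e : ℂ) / e') • ψ := by
      funext a
      simp [hres a]
    rw [h1, classInner_smul_left, classInner_irr_self hψ, mul_one]
  have hcon : classInner (fun a : L₁ => φM a) ψ ≠ 0 := by
    rw [hinner]
    exact div_ne_zero he he'C
  obtain ⟨f, hf, hfd⟩ := Cfsg.Agent.Lib.Char.DegreeDvd.exists_degree_ratio L₁ hφM hψ hcon
  have hfe : (f : ℂ) = (e : ℂ) / e' := by
    have h1 := hres 1
    have h2 : φM ((1 : L₁) : M) = φM 1 := rfl
    rw [h2, hf] at h1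
    exact mul_right_cancel₀ hψ1 h1
  have hψ1' : ψ 1 = φL 1 := by
    simp [ψ]
  refine ⟨f, by rw [hf, hψ1'], hfd, ?_⟩
  -- norm comparison
  have hresf : ∀ a : L₁, φM a = (f : ℂ) * ψ a := by
    intro a
    rw [hfe, hres a]
  have hsumψ : ∑ a : L₁, ‖ψ a‖ ^ 2 = (Nat.card L₁ : ℝ) := by
    have h2 : (Nat.card L₁ : ℝ)⁻¹ * ∑ a : L₁, ‖ψ a‖ ^ 2 = 1 := by
      have h3 := classInner_self_eq ψ
      rw [classInner_irr_self hψ] at h3
      exact_mod_cast h3.symm
    have hcard0 : (Nat.card L₁ : ℝ) ≠ 0 := by exact_mod_cast Nat.card_pos.ne'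
    field_simp at h2
    linarith
  have hsumM : ∑ a : M, ‖φM a‖ ^ 2 = (Nat.card M : ℝ) := by
    have h2 : (Nat.card M : ℝ)⁻¹ * ∑ a : M, ‖φM a‖ ^ 2 = 1 := by
      have h3 := classInner_self_eq φM
      rw [classInner_irr_self hφM] at h3
      exact_mod_cast h3.symm
    have hcard0 : (Nat.card M : ℝ) ≠ 0 := by exact_mod_cast Nat.card_pos.ne'
    field_simp at h2
    linarith
  have hle : ∑ a : L₁, ‖φM a‖ ^ 2 ≤ ∑ a : M, ‖φM a‖ ^ 2 := by
    have hinj : Function.Injective (fun a : L₁ => (a : M)) := Subtype.val_injective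
    rw [← Finset.sum_image (f := fun a : M => ‖φM a‖ ^ 2) (s := Finset.univ)
      (g := fun a : L₁ => (a : M)) (fun a _ b _ hab => hinj hab)]
    exact Finset.sum_le_sum_of_subset_of_nonneg (Finset.subset_univ _)
      (fun _ _ _ => by positivity)
  have hlhs : ∑ a : L₁, ‖φM a‖ ^ 2 = (f : ℝ) ^ 2 * (Nat.card L₁ : ℝ) := by
    rw [← hsumψ, Finset.mul_sum]
    refine Finset.sum_congr rfl fun a _ => ?_
    rw [hresf a, norm_mul, mul_pow]
    simp
  rw [hlhs, hsumM] at hle
  have hcard : Nat.card M = L₁.index * Nat.card L₁ := (Subgroup.index_mul_card L₁).symm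
  have hnat : f ^ 2 * Nat.card L₁ ≤ L₁.index * Nat.card L₁ := by
    rw [← hcard]
    exact_mod_cast hle
  exact Nat.le_of_mul_le_mul_right hnat Nat.card_pos

end Cfsg.Agent.Lib.S4994
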