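import Mathlib

set_option autoImplicit false

/-! S4994: the relative centralizer of an element in a section `M / L`. -/

namespace Cfsg.Agent.Lib.S4994

universe u

variable {G : Type u} [Group G]

/-- `{x ∈ M : [g, x] ∈ L}`, the preimage of the centralizer of `g` in the section `M / L`. -/
def relCent (L M : Subgroup G) [L.Normal] (g : G) : Subgroup G :=
  M ⊓ (Subgroup.centralizer {(QuotientGroup.mk g : G ⧸ L)}).comap (QuotientGroup.mk' L)

theorem mem_relCent {L M : Subgroup G} [L.Normal] {g x : G} :
    x ∈ relCent L M g ↔ x ∈ M ∧ g * x * g⁻¹ * x⁻¹ ∈ L := by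
  unfold relCent
  rw [Subgroup.mem_inf, Subgroup.mem_comap, Subgroup.mem_centralizer_singleton_iff]
  refine and_congr_right fun _ => ?_
  show (QuotientGroup.mk x : G ⧸ L) * QuotientGroup.mk g = QuotientGroup.mk g * QuotientGroup.mk x ↔ _
  rw [← QuotientGroup.mk_mul, ← QuotientGroup.mk_mul, QuotientGroup.eq]
  constructor
  · intro h
    have := (inferInstance : L.Normal).conj_mem _ h (g * x)
    convert this using 1
    group
  · intro h
    have := (inferInstance : L.Normal).conj_mem _ h (g * x)⁻¹
    convert this using 1
    group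

end Cfsg.Agent.Lib.S4994
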