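import Mathlib
import Cfsg.Prelude.Def_Blocks
import Cfsg.Agent.Lib.S4993.Homog
import Cfsg.Agent.Lib.S4994.Defs
import Cfsg.Agent.Lib.S4994.CharStep

/-! Piece A2 of S4994: the `p`-part of the degree of a primitive character along a normal series. -/

set_option autoImplicit false

namespace Cfsg.Agent.Lib.S4994

open Cfsg Cfsg.Agent.Lib.S4993 Cfsg.Agent.Lib.Char.Ortho
open scoped ComplexConjugate

universe u

variable {G : Type u} [Group G]

namespace CharPartAux

/-- An irreducible character of a trivial subgroup has degree one. -/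
theorem deg_one_of_bot (H : Subgroup G) (hH : H = ⊥) [Fintype H] {φ : H → ℂ}
    (hφ : IsIrrCharacter H φ) : φ 1 = 1 := by
  obtain ⟨d, hd0, hd⟩ := irr_degree_pos hφ
  have hsub : Subsingleton H := by
    subst hH
    infer_instance
  have h := classInner_irr_self hφ
  unfold classInner at h
  rw [Fintype.sum_subsingleton _ (1 : H), Nat.card_of_subsingleton (1 : H), hd] at h
  have h2 : (d : ℂ) * d = 1 := by
    simpa using h
  have h3 : d * d = 1 := by exact_mod_cast h2
  have h4 : d = 1 := Nat.eq_one_of_mul_eq_one_right h3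
  rw [hd, h4]
  simp

/-- Over the whole group the multiplicity is one. -/
theorem e_eq_one_of_top [Fintype G] (H : Subgroup G) (hH : H = ⊤) [Fintype H] {χ : G → ℂ}
    (hχ : IsIrrCharacter G χ) {φ : H → ℂ} (hφ : IsIrrCharacter H φ) {e : ℕ}
    (h : ∀ x : H, χ x = e * φ x) : e = 1 := by
  have h1 := classInner_irr_self hχ
  have h2 := classInner_irr_self hφ
  unfold classInner at h1 h2
  have hmem : ∀ g : G, g ∈ H := fun g => by rw [hH]; exact Subgroup.mem_top g
  have hcard : Nat.card H = Nat.card G :=
    Nat.card_congr (Equiv.subtypeUnivEquiv hmem)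
  have hbij : Function.Bijective (fun x : H => (x : G)) :=
    ⟨Subtype.val_injective, fun g => ⟨⟨g, hmem g⟩, rfl⟩⟩
  have hsum : ∑ g : G, χ g * conj (χ g) = ∑ x : H, χ x * conj (χ x) :=
    (hbij.sum_comp (fun g => χ g * conj (χ g))).symm
  have hsum2 : ∑ x : H, χ x * conj (χ x) = (e : ℂ) ^ 2 * ∑ x : H, φ x * conj (φ x) := by
    rw [Finset.mul_sum]
    refine Finset.sum_congr rfl fun x _ => ?_
    rw [h x, map_mul, Complex.conj_natCast]
    ring
  rw [hsum, hsum2] at h1
  rw [hcard] at h2
  have h3 : (e : ℂ) ^ 2 = 1 := by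
    have h4 : (Nat.card G : ℂ)⁻¹ * ((e : ℂ) ^ 2 * ∑ x : H, φ x * conj (φ x))
        = (e : ℂ) ^ 2 * ((Nat.card G : ℂ)⁻¹ * ∑ x : H, φ x * conj (φ x)) := by ring
    rw [h4, h2, mul_one] at h1
    exact h1
  have h5 : e ^ 2 = 1 := by exact_mod_cast h3
  exact Nat.eq_one_of_mul_eq_one_right (by rw [← sq]; exact h5)

end CharPartAux

theorem char_part [Fintype G] {χ : G → ℂ} (hχ : IsIrrCharacter G χ) (hprim : IsPrim χ) {n : ℕ}
    (hn : χ 1 = n) (p : ℕ) [Fact p.Prime] (N : ℕ → Subgroup G) [∀ i, (N i).Normal] (l : ℕ)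
    (h0 : N 0 = ⊥) (hl : N l = ⊤) (hmono : ∀ i < l, N i ≤ N (i + 1)) (𝒜 : Finset ℕ)
    (h𝒜 : 𝒜 ⊆ Finset.range l)
    (hrest : ∀ i < l, i ∉ 𝒜 → (Nat.Coprime p ((N i).relIndex (N (i + 1))) ∨
      (N i).relIndex (N (i + 1)) = p)) :
    p ^ (2 * n.factorization p) ≤ ∏ i ∈ 𝒜, (N i).relIndex (N (i + 1)) := by
  classical
  have hp : p.Prime := Fact.out
  haveI : ∀ i, Fintype (N i) := fun i => Fintype.ofFinite _
  choose φ hφ e he using fun i => homog hχ hprim (N i)
  choose d hd0 hd using fun i => irr_degree_pos (hφ i)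
  have hχ1 : χ 1 ≠ 0 := irr_apply_one_ne_zero hχ
  have he0 : ∀ i, e i ≠ 0 := by
    intro i h00
    have h1 := he i 1
    rw [h00] at h1
    apply hχ1
    simpa using h1
  have hstep : ∀ i < l, ∃ f : ℕ, d (i + 1) = f * d i ∧ f ∣ (N i).relIndex (N (i + 1)) ∧
      f ^ 2 ≤ (N i).relIndex (N (i + 1)) := by
    intro i hi
    obtain ⟨f, h1, h2, h3⟩ := char_step (N i) (N (i + 1)) (hmono i hi) (hφ i) (hφ (i + 1))
      (he0 (i + 1)) (fun x => by
        rw [← he i x]
        exact he (i + 1) ⟨x, hmono i hi x.2⟩)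
    refine ⟨f, ?_, h2, h3⟩
    rw [hd, hd] at h1
    exact_mod_cast h1
  have hd00 : d 0 = 1 := by
    have h1 := CharPartAux.deg_one_of_bot (N 0) h0 (hφ 0)
    rw [hd 0] at h1
    exact_mod_cast h1
  have hdl : d l = n := by
    have h1 := he l 1
    rw [CharPartAux.e_eq_one_of_top (N l) hl hχ (hφ l) (he l), hd l] at h1
    have h2 : (n : ℂ) = d l := by
      rw [← hn]
      simpa using h1
    exact_mod_cast h2.symm
  have key : ∀ j, j ≤ l → p ^ (2 * (d j).factorization p) ≤
      ∏ i ∈ 𝒜.filter (· < j), (N i).relIndex (N (i + 1)) := by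
    intro j
    induction j with
    | zero =>
      intro _
      rw [hd00]
      simp
    | succ j ih =>
      intro hj
      have hj' : j < l := hj
      have ih' := ih (by omega)
      obtain ⟨f, hf1, hf2, hf3⟩ := hstep j hj'
      have hf0 : f ≠ 0 := by
        rintro rfl
        have := hd0 (j + 1)
        rw [hf1] at this
        simp at this
      have hdj0 : d j ≠ 0 := (hd0 j).ne'
      have hfact : (d (j + 1)).factorization p = f.factorization p + (d j).factorization p := by
        rw [hf1, Nat.factorization_mul hf0 hdj0]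
        rfl
      by_cases hjA : j ∈ 𝒜
      · have hins : 𝒜.filter (· < j + 1) = insert j (𝒜.filter (· < j)) := by
          ext i
          simp only [Finset.mem_filter, Finset.mem_insert]
          constructor
          · rintro ⟨h1, h2⟩
            by_cases hij : i = j
            · exact Or.inl hij
            · exact Or.inr ⟨h1, by omega⟩
          · rintro (rfl | ⟨h1, h2⟩)
            · exact ⟨hjA, by omega⟩
            · exact ⟨h1, by omega⟩
        rw [hins, Finset.prod_insert (by simp), hfact, mul_add, pow_add]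
        refine Nat.mul_le_mul ?_ ih'
        calc p ^ (2 * f.factorization p) = (p ^ f.factorization p) ^ 2 := by
              rw [mul_comm, pow_mul]
          _ ≤ f ^ 2 := Nat.pow_le_pow_left
              (Nat.le_of_dvd (Nat.pos_of_ne_zero hf0) (Nat.ordProj_dvd f p)) 2
          _ ≤ _ := hf3
      · have hsame : 𝒜.filter (· < j + 1) = 𝒜.filter (· < j) := by
          ext i
          simp only [Finset.mem_filter]
          constructor
          · rintro ⟨h1, h2⟩
            have hij : i ≠ j := fun h => hjA (h ▸ h1)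
            exact ⟨h1, by omega⟩
          · rintro ⟨h1, h2⟩
            exact ⟨h1, by omega⟩
        rw [hsame, hfact]
        have hv : f.factorization p = 0 := by
          rcases hrest j hj' hjA with hc | hu
          · exact Nat.factorization_eq_zero_of_not_dvd
              (fun hdvd => (Nat.Prime.coprime_iff_not_dvd hp).mp hc (hdvd.trans hf2))
          · rw [hu] at hf2 hf3
            rcases (Nat.dvd_prime hp).mp hf2 with rfl | rfl
            · simp
            · exfalso
              have h2 := hp.two_le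
              nlinarith
        rw [hv, zero_add]
        exact ih'
  have hfinal := key l le_rfl
  rw [hdl] at hfinal
  have hfilter : 𝒜.filter (· < l) = 𝒜 :=
    Finset.filter_true_of_mem (fun i hi => Finset.mem_range.mp (h𝒜 hi))
  rwa [hfilter] at hfinal

end Cfsg.Agent.Lib.S4994
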