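import Mathlib
import Cfsg.Agent.Lib.S4994.Defs

set_option autoImplicit false

/-! Chief factors of solvable groups are elementary abelian; central chief factors have prime
order. -/

namespace Cfsg.Agent.Lib.S4994

universe u

variable {G : Type u} [Group G]

theorem chief_factor [Finite G] (hsolv : Group.IsSolvable G) (L M : Subgroup G) [L.Normal] [M.Normal]
    (hLM : L < M) (hchief : ∀ K : Subgroup G, K.Normal → L ≤ K → K ≤ M → K = L ∨ K = M) :
    ∃ r k : ℕ, r.Prime ∧ 0 < k ∧ L.relIndex M = r ^ k ∧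
      (∀ x ∈ M, ∀ y ∈ M, x * y * x⁻¹ * y⁻¹ ∈ L) ∧ (∀ x ∈ M, x ^ r ∈ L) := by
  classical
  let f := QuotientGroup.mk' L
  have hker : f.ker = L := QuotientGroup.ker_mk' L
  have hmemL : ∀ x : G, x ∈ L ↔ f x = 1 := fun x => by
    rw [← MonoidHom.mem_ker, hker]
  set H : Subgroup (G ⧸ L) := M.map f with hH
  have hcard : L.relIndex M = Nat.card H := by
    have h2 := Subgroup.relIndex_ker (f := f) M
    rw [hker] at h2
    exact h2
  -- commutators
  have hab : ∀ x ∈ M, ∀ y ∈ M, x * y * x⁻¹ * y⁻¹ ∈ L := by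
    have hnM : (⁅M, M⁆).Normal := Subgroup.commutator_normal M M
    have hK : (⁅M, M⁆ ⊔ L).Normal := Subgroup.sup_normal _ _
    have hle1 : ⁅M, M⁆ ≤ M := Subgroup.commutator_le_left M M
    rcases hchief (⁅M, M⁆ ⊔ L) hK le_sup_right (sup_le hle1 hLM.le) with h | h
    · intro x hx y hy
      have h0 : x * y * x⁻¹ * y⁻¹ ∈ ⁅M, M⁆ := Subgroup.commutator_mem_commutator hx hy
      have h2 : x * y * x⁻¹ * y⁻¹ ∈ ⁅M, M⁆ ⊔ L := (le_sup_left : ⁅M, M⁆ ≤ ⁅M, M⁆ ⊔ L) h0
      rw [h] at h2
      exact h2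
    · exfalso
      have hHeq : ⁅H, H⁆ = H := by
        have h1 : (⁅M, M⁆ ⊔ L).map f = H := congrArg (Subgroup.map f) h
        have h2 : (⁅M, M⁆ ⊔ L).map f = (⁅M, M⁆).map f := by
          rw [Subgroup.map_sup]
          have : L.map f = ⊥ := by
            rw [Subgroup.map_eq_bot_iff, hker]
          rw [this, sup_bot_eq]
        have h3 : ⁅H, H⁆ = (⁅M, M⁆).map f := (Subgroup.map_commutator M M f).symm
        rw [h3, ← h2, h1]
      have hQsolv : Group.IsSolvable (G ⧸ L) := by
        haveI := hsolv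
        infer_instance
      obtain ⟨n, hn⟩ := hQsolv.solvable
      have hall : ∀ i : ℕ, H ≤ derivedSeries (G ⧸ L) i := by
        intro i
        induction i with
        | zero => exact le_top
        | succ i ih =>
          rw [derivedSeries_succ, ← hHeq]
          exact Subgroup.commutator_mono ih ih
      have hbot : H = ⊥ := by
        rw [eq_bot_iff]
        have := hall n
        rwa [hn] at this
      have : M ≤ L := by
        have h3 := (Subgroup.map_eq_bot_iff M).1 hbot
        rwa [hker] at h3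
      exact absurd this (not_le_of_gt hLM)
  -- prime
  have hne1 : L.relIndex M ≠ 1 := by
    intro h1
    exact absurd (Subgroup.relIndex_eq_one.1 h1) (not_le_of_gt hLM)
  set r := (L.relIndex M).minFac with hrdef
  have hr : r.Prime := Nat.minFac_prime hne1
  haveI : Fact r.Prime := ⟨hr⟩
  have hrdvd : r ∣ Nat.card H := hcard ▸ Nat.minFac_dvd _
  obtain ⟨h₀, hh₀⟩ := exists_prime_orderOf_dvd_card' (G := H) r hrdvd
  have hcommf : ∀ x ∈ M, ∀ y ∈ M, Commute (f x) (f y) := by
    intro x hx y hy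
    have h1 := (hmemL _).1 (hab x hx y hy)
    have h2 : f x * f y * (f x)⁻¹ * (f y)⁻¹ = 1 := by
      rw [← map_inv, ← map_inv, ← map_mul, ← map_mul, ← map_mul]
      exact h1
    have h3 : f x * f y * (f x)⁻¹ = f y := mul_inv_eq_one.1 h2
    exact mul_inv_eq_iff_eq_mul.1 h3
  let K : Subgroup G :=
    { carrier := {x | x ∈ M ∧ x ^ r ∈ L}
      one_mem' := ⟨one_mem _, by simp⟩
      mul_mem' := by
        rintro a b ⟨ha, ha'⟩ ⟨hb, hb'⟩
        refine ⟨mul_mem ha hb, ?_⟩
        rw [hmemL] at ha' hb' ⊢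
        rw [map_pow, map_mul, (hcommf a ha b hb).mul_pow, ← map_pow, ← map_pow, ha', hb', one_mul]
      inv_mem' := by
        rintro a ⟨ha, ha'⟩
        refine ⟨inv_mem ha, ?_⟩
        rw [inv_pow]
        exact inv_mem ha' }
  have hKn : K.Normal := by
    refine ⟨fun x hx g => ⟨(inferInstance : M.Normal).conj_mem x hx.1 g, ?_⟩⟩
    rw [conj_pow]
    exact (inferInstance : L.Normal).conj_mem _ hx.2 g
  have hLK : L ≤ K := fun x hx => ⟨hLM.le hx, pow_mem hx _⟩
  have hKM : K ≤ M := fun x hx => hx.1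
  have hKM' : K = M := by
    rcases hchief K hKn hLK hKM with h | h
    · exfalso
      obtain ⟨y, hyM, hyeq⟩ := (Subgroup.mem_map.1 h₀.2)
      have hyK : y ∈ K := by
        refine ⟨hyM, ?_⟩
        rw [hmemL, map_pow, hyeq]
        have : (h₀ : G ⧸ L) ^ r = 1 := by
          have h4 := pow_orderOf_eq_one h₀
          rw [hh₀] at h4
          exact congrArg Subtype.val h4
        exact this
      rw [h] at hyK
      have h5 := (hmemL y).1 hyK
      rw [hyeq] at h5
      have h6 : h₀ = 1 := Subtype.ext h5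
      rw [h6, orderOf_one] at hh₀
      exact hr.one_lt.ne hh₀
    · exact h
  have hexp : ∀ x ∈ M, x ^ r ∈ L := by
    intro x hx
    rw [← hKM'] at hx
    exact hx.2
  have hpg : IsPGroup r H := by
    rintro ⟨y, hy⟩
    obtain ⟨x, hx, rfl⟩ := Subgroup.mem_map.1 hy
    refine ⟨1, ?_⟩
    apply Subtype.ext
    have := (hmemL _).1 (hexp x hx)
    rw [map_pow] at this
    simpa using this
  obtain ⟨k, hk⟩ := IsPGroup.iff_card.1 hpg
  refine ⟨r, k, hr, ?_, by rw [hcard, hk], hab, hexp⟩
  rcases Nat.eq_zero_or_pos k with h0 | h0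
  · exfalso
    apply hne1
    rw [hcard, hk, h0, pow_zero]
  · exact h0

theorem chief_central [Finite G] (L M : Subgroup G) [L.Normal] [M.Normal]
    (hLM : L < M) (hchief : ∀ K : Subgroup G, K.Normal → L ≤ K → K ≤ M → K = L ∨ K = M)
    {r : ℕ} (hr : r.Prime) (hexp : ∀ x ∈ M, x ^ r ∈ L)
    (hcentral : ∀ g : G, ∀ x ∈ M, g * x * g⁻¹ * x⁻¹ ∈ L) : L.relIndex M = r := by
  classical
  let f := QuotientGroup.mk' L
  have hker : f.ker = L := QuotientGroup.ker_mk' L
  have hmemL : ∀ x : G, x ∈ L ↔ f x = 1 := fun x => by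
    rw [← MonoidHom.mem_ker, hker]
  have hcard : L.relIndex M = Nat.card (M.map f) := by
    have h2 := Subgroup.relIndex_ker (f := f) M
    rw [hker] at h2
    exact h2
  obtain ⟨x, hxM, hxL⟩ := SetLike.exists_of_lt hLM
  set y := f x with hy
  have hy1 : y ≠ 1 := fun h => hxL ((hmemL x).2 h)
  have hycomm : ∀ q : G ⧸ L, q * y = y * q := by
    intro q
    obtain ⟨g, rfl⟩ := QuotientGroup.mk'_surjective L q
    have h1 := (hmemL _).1 (hcentral g x hxM)
    have h2 : f g * y * (f g)⁻¹ * y⁻¹ = 1 := by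
      rw [hy, ← map_inv, ← map_inv, ← map_mul, ← map_mul, ← map_mul]
      exact h1
    have h3 : f g * y * (f g)⁻¹ = y := mul_inv_eq_one.1 h2
    exact mul_inv_eq_iff_eq_mul.1 h3
  let Y : Subgroup (G ⧸ L) := Subgroup.zpowers y
  have hYn : Y.Normal := by
    refine ⟨fun n hn g => ?_⟩
    obtain ⟨i, rfl⟩ := Subgroup.mem_zpowers_iff.1 hn
    have : g * y ^ i * g⁻¹ = y ^ i := by
      have hc : Commute g (y ^ i) := ((show Commute g y from hycomm g).zpow_right i)
      rw [hc.eq]; group
    rw [this]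
    exact Subgroup.mem_zpowers_iff.2 ⟨i, rfl⟩
  let K : Subgroup G := Y.comap f
  have hKn : K.Normal := hYn.comap _
  have hLK : L ≤ K := by
    intro z hz
    change f z ∈ Y
    rw [(hmemL z).1 hz]
    exact one_mem _
  have hKM : K ≤ M := by
    intro z hz
    obtain ⟨i, hi⟩ := Subgroup.mem_zpowers_iff.1 (show f z ∈ Y from hz)
    have h1 : f (z * (x ^ i)⁻¹) = 1 := by
      rw [map_mul, map_inv, map_zpow, ← hy, hi, mul_inv_cancel]
    have h2 : z * (x ^ i)⁻¹ ∈ M := hLM.le ((hmemL _).2 h1)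
    have h3 : x ^ i ∈ M := zpow_mem hxM i
    have h4 := mul_mem h2 h3
    simpa using h4
  have hKM' : K = M := by
    rcases hchief K hKn hLK hKM with h | h
    · exfalso
      have : x ∈ K := Subgroup.mem_zpowers y
      rw [h] at this
      exact hxL this
    · exact h
  have hmap : M.map f = Y := by
    rw [← hKM']
    exact Subgroup.map_comap_eq_self_of_surjective (QuotientGroup.mk'_surjective L) Y
  have hordr : orderOf y = r := by
    haveI : Fact r.Prime := ⟨hr⟩
    apply orderOf_eq_prime _ hy1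
    have := (hmemL _).1 (hexp x hxM)
    rwa [map_pow] at this
  rw [hcard, hmap, Nat.card_zpowers, hordr]

end Cfsg.Agent.Lib.S4994
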