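import Mathlib
import Cfsg.Agent.Lib.S4994.Defs

/-! S4994 piece B: the index of a centralizer along a normal series. -/

set_option autoImplicit false

namespace Cfsg.Agent.Lib.S4994

universe u

variable {G : Type u} [Group G]

theorem counting_step_dvd [Finite G] (X Y : Subgroup G) [hX : X.Normal] (g : G) (hXY : X ≤ Y) :
    ((Subgroup.centralizer ({g} : Set G)) ⊓ X).relIndex ((Subgroup.centralizer ({g} : Set G)) ⊓ Y) ∣
      X.relIndex (relCent X Y g) := by
  set C := Subgroup.centralizer ({g} : Set G) with hC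
  have hT : C ⊓ Y ≤ relCent X Y g := by
    intro x hx
    rw [mem_relCent]
    refine ⟨hx.2, ?_⟩
    have hc : g * x = x * g := by
      have := Subgroup.mem_centralizer_singleton_iff.1 hx.1
      exact this.symm
    have : g * x * g⁻¹ * x⁻¹ = 1 := by
      rw [hc]; group
    rw [this]
    exact X.one_mem
  have hXR : X ≤ relCent X Y g := by
    intro x hx
    rw [mem_relCent]
    refine ⟨hXY hx, ?_⟩
    exact X.mul_mem (hX.conj_mem x hx g) (X.inv_mem hx)
  have h1 : (C ⊓ X).relIndex (C ⊓ Y) = X.relIndex (C ⊓ Y) := by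
    have h2 : X ⊓ (C ⊓ Y) = C ⊓ X := by
      ext x
      simp only [Subgroup.mem_inf]
      constructor
      · rintro ⟨a, b, -⟩; exact ⟨b, a⟩
      · rintro ⟨a, b⟩; exact ⟨b, a, hXY b⟩
    rw [← Subgroup.inf_relIndex_right X (C ⊓ Y), h2]
  rw [h1, ← Subgroup.relIndex_sup_left]
  exact Dvd.intro _ (Subgroup.relIndex_mul_relIndex X (X ⊔ C ⊓ Y) (relCent X Y g) le_sup_left
    (sup_le hXR hT))

theorem counting [Finite G] (p : ℕ) [hp : Fact p.Prime] (N : ℕ → Subgroup G) [hN : ∀ i, (N i).Normal]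
    (l : ℕ) (h0 : N 0 = ⊥) (hl : N l = ⊤) (hmono : ∀ i < l, N i ≤ N (i + 1)) (g : G) (𝒜 : Finset ℕ)
    (h𝒜 : 𝒜 ⊆ Finset.range l) (hpow : ∀ i ∈ 𝒜, ∃ k, (N i).relIndex (N (i + 1)) = p ^ k) :
    ∏ i ∈ 𝒜, (N i).relIndex (N (i + 1)) ≤
      p ^ ((Subgroup.centralizer ({g} : Set G)).index.factorization p) *
        ∏ i ∈ 𝒜, (N i).relIndex (relCent (N i) (N (i + 1)) g) := by
  classical
  set C := Subgroup.centralizer ({g} : Set G) with hC
  set u : ℕ → ℕ := fun i => (N i).relIndex (N (i + 1)) with hu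
  set c : ℕ → ℕ := fun i => (N i).relIndex (relCent (N i) (N (i + 1)) g) with hc
  set d : ℕ → ℕ := fun i => (C ⊓ N i).relIndex (C ⊓ N (i + 1)) with hd
  set I : ℕ → ℕ := fun i => (C ⊓ N i).relIndex (N i) with hI
  set w : ℕ → ℕ := fun i => u i / d i with hw
  have hdc : ∀ i < l, d i ∣ c i := fun i hi => counting_step_dvd (N i) (N (i + 1)) g (hmono i hi)
  have hXR : ∀ i < l, N i ≤ relCent (N i) (N (i + 1)) g := by
    intro i hi x hx
    rw [mem_relCent]
    exact ⟨hmono i hi hx, (N i).mul_mem ((hN i).conj_mem x hx g) ((N i).inv_mem hx)⟩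
  have hRY : ∀ i, relCent (N i) (N (i + 1)) g ≤ N (i + 1) := fun i x hx => (mem_relCent.1 hx).1
  have hcu : ∀ i < l, c i ∣ u i := fun i hi =>
    Dvd.intro _ (Subgroup.relIndex_mul_relIndex _ _ _ (hXR i hi) (hRY i))
  have hdu : ∀ i < l, d i ∣ u i := fun i hi => (hdc i hi).trans (hcu i hi)
  have hdpos : ∀ i, 0 < d i := fun i => Nat.pos_of_ne_zero (by
    exact Subgroup.index_ne_zero_of_finite)
  have hcpos : ∀ i, 0 < c i := fun i => Nat.pos_of_ne_zero (by
    exact Subgroup.index_ne_zero_of_finite)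
  have hrel : ∀ i < l, I i * u i = d i * I (i + 1) := by
    intro i hi
    have h1 := Subgroup.relIndex_mul_relIndex (C ⊓ N i) (N i) (N (i + 1)) inf_le_right (hmono i hi)
    have h2 := Subgroup.relIndex_mul_relIndex (C ⊓ N i) (C ⊓ N (i + 1)) (N (i + 1))
      (inf_le_inf_left C (hmono i hi)) inf_le_right
    exact h1.trans h2.symm
  have hwu : ∀ i < l, u i = d i * w i := fun i hi => (Nat.mul_div_cancel' (hdu i hi)).symm
  have hstep : ∀ i < l, I (i + 1) = I i * w i := by
    intro i hi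
    have h1 := hrel i hi
    rw [hwu i hi] at h1
    apply Nat.eq_of_mul_eq_mul_left (hdpos i)
    rw [← h1]
    ring
  have hprod : ∀ m ≤ l, I m = ∏ i ∈ Finset.range m, w i := by
    intro m
    induction m with
    | zero =>
      intro _
      simp [hI, h0]
    | succ m ih =>
      intro hm
      rw [Finset.prod_range_succ, hstep m (by omega), ih (by omega)]
  have hIl : I l = C.index := by
    simp [hI, hl]
  have hdvd : ∏ i ∈ 𝒜, w i ∣ C.index := by
    rw [← hIl, hprod l le_rfl]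
    exact Finset.prod_dvd_prod_of_subset _ _ _ h𝒜
  have key : ∀ s : Finset ℕ, (∀ i ∈ s, ∃ m, w i = p ^ m) → ∃ t, ∏ i ∈ s, w i = p ^ t := by
    intro s
    induction s using Finset.induction_on with
    | empty =>
      intro _
      exact ⟨0, by simp⟩
    | insert a s ha ih =>
      intro hall
      obtain ⟨t, ht⟩ := ih (fun i hi => hall i (Finset.mem_insert_of_mem hi))
      obtain ⟨m, hm⟩ := hall a (Finset.mem_insert_self _ _)
      exact ⟨m + t, by rw [Finset.prod_insert ha, hm, ht, pow_add]⟩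
  have hall : ∀ i ∈ 𝒜, ∃ m, w i = p ^ m := by
    intro i hi
    obtain ⟨k, hk⟩ := hpow i hi
    have hil : i < l := Finset.mem_range.1 (h𝒜 hi)
    have hwd : w i ∣ p ^ k := by
      rw [← hk]
      exact Dvd.intro_left _ (hwu i hil).symm
    obtain ⟨m, -, hm⟩ := (Nat.dvd_prime_pow hp.out).1 hwd
    exact ⟨m, hm⟩
  obtain ⟨t, ht⟩ := key 𝒜 hall
  have htle : t ≤ C.index.factorization p :=
    (hp.out.pow_dvd_iff_le_factorization Subgroup.index_ne_zero_of_finite).1 (ht ▸ hdvd)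
  calc ∏ i ∈ 𝒜, (N i).relIndex (N (i + 1)) = ∏ i ∈ 𝒜, (d i * w i) :=
        Finset.prod_congr rfl (fun i hi => hwu i (Finset.mem_range.1 (h𝒜 hi)))
    _ = p ^ t * ∏ i ∈ 𝒜, d i := by rw [Finset.prod_mul_distrib, ht, mul_comm]
    _ ≤ p ^ (C.index.factorization p) * ∏ i ∈ 𝒜, c i :=
        Nat.mul_le_mul (Nat.pow_le_pow_right hp.out.pos htle)
          (Finset.prod_le_prod (fun _ _ => Nat.zero_le _)
            (fun i hi => Nat.le_of_dvd (hcpos i) (hdc i (Finset.mem_range.1 (h𝒜 hi)))))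

end Cfsg.Agent.Lib.S4994
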