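import Mathlib
import Cfsg.Agent.Lib.S4994.Defs

/-! Piece C of S4994 with `chief_factor` and `lemma_E` as hypotheses. -/

set_option autoImplicit false

namespace Cfsg.Agent.Lib.S4994

universe u

variable {G : Type u} [Group G]

namespace GroupLemmaAux

set_option linter.unusedSectionVars false

variable {ι : Type} [Fintype ι] (A : ι → Type u) [∀ i, AddCommGroup (A i)] [∀ i, Finite (A i)]
  [∀ i, DistribMulAction G (A i)]

/-- The subgroup acting trivially on all `A i`, `i ∈ s`. -/
def kerOn (s : Finset ι) : Subgroup G where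
  carrier := {g | ∀ i ∈ s, ∀ a : A i, g • a = a}
  mul_mem' := by
    intro x y hx hy i hi a
    rw [mul_smul, hy i hi a, hx i hi a]
  one_mem' := by
    intro i _ a
    exact one_smul G a
  inv_mem' := by
    intro x hx i hi a
    have := hx i hi a
    rw [inv_smul_eq_iff, this]

theorem mem_kerOn {s : Finset ι} {g : G} : g ∈ kerOn (G := G) A s ↔ ∀ i ∈ s, ∀ a : A i, g • a = a :=
  Iff.rfl

instance kerOn_normal (s : Finset ι) : (kerOn (G := G) A s).Normal := by
  constructor
  intro n hn g i hi a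
  rw [mul_smul, mul_smul, hn i hi (g⁻¹ • a), smul_inv_smul]

/-- fixed points of a normal subgroup on `A i`. -/
def fixN {B : Type u} [AddCommGroup B] [DistribMulAction G B] (N : Subgroup G) : AddSubgroup B where
  carrier := {a | ∀ x ∈ N, x • a = a}
  add_mem' := by
    intro a b ha hb x hx
    rw [smul_add, ha x hx, hb x hx]
  zero_mem' := by
    intro x _
    exact smul_zero x
  neg_mem' := by
    intro a ha x hx
    rw [smul_neg, ha x hx]

theorem fixN_invariant {B : Type u} [AddCommGroup B] [DistribMulAction G B] (N : Subgroup G)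
    [hN : N.Normal] (g : G) (a : B) (ha : a ∈ fixN (G := G) (B := B) N) :
    g • a ∈ fixN (G := G) (B := B) N := by
  intro x hx
  have h1 : g⁻¹ * x * g ∈ N := by
    have := hN.conj_mem x hx g⁻¹
    simpa using this
  have h2 := ha _ h1
  calc x • g • a = g • ((g⁻¹ * x * g) • a) := by
        rw [← mul_smul, ← mul_smul]
        congr 1
        group
    _ = g • a := by rw [h2]

/-- A `p`-group of automorphisms (mod something trivial) of a nontrivial module of exponent `p` has a
nonzero fixed point. -/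
theorem exists_fixed_of_pow {B : Type u} [AddCommGroup B] [Finite B] [DistribMulAction G B] {p : ℕ}
    [Fact p.Prime] (hp : ∀ a : B, p • a = 0) (hB : Nontrivial B) (N : Subgroup G)
    (hN : ∀ x ∈ N, ∀ a : B, x ^ p • a = a) : ∃ a : B, a ≠ 0 ∧ ∀ x ∈ N, x • a = a := by
  classical
  let Γ : Subgroup (Equiv.Perm B) := N.map (MulAction.toPermHom G B)
  have hΓ : IsPGroup p Γ := by
    intro γ
    obtain ⟨γ, x, hx, rfl⟩ := γ
    refine ⟨1, Subtype.ext ?_⟩
    rw [pow_one]
    show (MulAction.toPermHom G B x) ^ p = 1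
    rw [← map_pow]
    ext a
    exact hN x hx a
  have : Finite (MulAction.fixedPoints Γ B) := inferInstance
  have hmod := hΓ.card_modEq_card_fixedPoints B
  obtain ⟨b, hb⟩ := exists_ne (0 : B)
  have hdvd : p ∣ Nat.card B := by
    have h1 : addOrderOf b ∣ p := addOrderOf_dvd_of_nsmul_eq_zero (hp b)
    have h2 : addOrderOf b ≠ 1 := by
      intro h
      exact hb (AddMonoid.addOrderOf_eq_one_iff.mp h)
    have h3 : addOrderOf b = p := by
      rcases (Nat.dvd_prime Fact.out).mp h1 with h | h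
      · exact absurd h h2
      · exact h
    rw [← h3]
    exact addOrderOf_dvd_natCard b
  have hdvd' : p ∣ Nat.card (MulAction.fixedPoints Γ B) := by
    have := (Nat.modEq_zero_iff_dvd.mp ((hmod.symm).trans (Nat.modEq_zero_iff_dvd.mpr hdvd)))
    exact this
  have h0 : (0 : B) ∈ MulAction.fixedPoints Γ B := by
    rintro ⟨γ, x, hx, rfl⟩
    show x • (0 : B) = 0
    exact smul_zero x
  have hcard : 1 < Nat.card (MulAction.fixedPoints Γ B) := by
    have hpos : 0 < Nat.card (MulAction.fixedPoints Γ B) := by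
      have : Nonempty (MulAction.fixedPoints Γ B) := ⟨⟨0, h0⟩⟩
      exact Nat.card_pos
    have := Nat.le_of_dvd hpos hdvd'
    have hp2 := (Fact.out : p.Prime).two_le
    omega
  have : Nontrivial (MulAction.fixedPoints Γ B) := Finite.one_lt_card_iff_nontrivial.mp hcard
  obtain ⟨⟨a, ha⟩, ha0⟩ := exists_ne (⟨0, h0⟩ : MulAction.fixedPoints Γ B)
  refine ⟨a, fun h => ha0 (Subtype.ext h), fun x hx => ?_⟩
  have := ha ⟨MulAction.toPermHom G B x, x, hx, rfl⟩
  exact this

end GroupLemmaAux

open GroupLemmaAux in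
/-- The inductive statement. -/
theorem group_lemma_finset_core [Finite G] (p : ℕ) [Fact p.Prime]
    {ι : Type} [Fintype ι] (A : ι → Type u) [∀ i, AddCommGroup (A i)] [∀ i, Finite (A i)]
    [∀ i, DistribMulAction G (A i)] (hp : ∀ i, ∀ a : A i, p • a = 0)
    (hCF : ∀ (L M : Subgroup G) [L.Normal] [M.Normal], L < M →
      (∀ K : Subgroup G, K.Normal → L ≤ K → K ≤ M → K = L ∨ K = M) →
      ∃ r k : ℕ, r.Prime ∧ 0 < k ∧ L.relIndex M = r ^ k ∧
        (∀ x ∈ M, ∀ y ∈ M, x * y * x⁻¹ * y⁻¹ ∈ L) ∧ (∀ x ∈ M, x ^ r ∈ L))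
    (hE : ∀ (i : ι) {q : ℕ} [Fact q.Prime], q ≠ p → ∀ (N : Subgroup G) [N.Normal] [Fintype N],
      (∀ x ∈ N, ∀ y ∈ N, ∀ a : A i, (x * y) • a = (y * x) • a) →
      (∀ x ∈ N, ∀ a : A i, x ^ q • a = a) →
      (∀ a : A i, (∀ x ∈ N, x • a = a) → a = 0) → ∀ h : G,
      ∏ b : N, (Nat.card {a : A i // (h * b) • a = a}) ^ 2 ≤ Nat.card (A i) ^ Nat.card N)
    (hirr : ∀ i, ∀ S : AddSubgroup (A i), (∀ g : G, ∀ a ∈ S, g • a ∈ S) → S = ⊥ ∨ S = ⊤)
    (hnt : ∀ i, ∃ g : G, ∃ a : A i, g • a ≠ a) (s : Finset ι) :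
    ∃ g : G, (∏ i ∈ s, Nat.card {a : A i // g • a = a}) ^ 2 ≤ ∏ i ∈ s, Nat.card (A i) := by
  classical
  induction s using Finset.strongInduction with
  | H s ih =>
    by_cases hs : s = ∅
    · subst hs
      exact ⟨1, by simp⟩
    obtain ⟨i₀, hi₀⟩ := Finset.nonempty_iff_ne_empty.mpr hs
    let K : Subgroup G := kerOn (G := G) A s
    have hKn : K.Normal := kerOn_normal A s
    have hKtop : K ≠ ⊤ := by
      intro h
      obtain ⟨g, a, hg⟩ := hnt i₀
      have : g ∈ K := by rw [h]; trivial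
      exact hg (this i₀ hi₀ a)
    -- a minimal normal subgroup above `K`
    let S : Set (Subgroup G) := {M | M.Normal ∧ K < M}
    have hSne : S.Nonempty := ⟨⊤, inferInstance, lt_top_iff_ne_top.mpr hKtop⟩
    obtain ⟨N, ⟨hNn, hKN⟩, hmin⟩ := (wellFounded_lt (α := Subgroup G)).has_min S hSne
    have : N.Normal := hNn
    have hchief : ∀ M : Subgroup G, M.Normal → K ≤ M → M ≤ N → M = K ∨ M = N := by
      intro M hM h1 h2
      by_contra hcon
      push Not at hcon
      exact hmin M ⟨hM, lt_of_le_of_ne h1 (Ne.symm hcon.1)⟩ (lt_of_le_of_ne h2 hcon.2)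
    obtain ⟨q, k, hq, hk, hidx, hab, hexp⟩ := hCF K N hKN hchief
    have : Fact q.Prime := ⟨hq⟩
    -- the set where `N` acts nontrivially
    let I₁ : Finset ι := s.filter (fun i => ∃ x ∈ N, ∃ a : A i, x • a ≠ a)
    let I₀ : Finset ι := s.filter (fun i => ¬ ∃ x ∈ N, ∃ a : A i, x • a ≠ a)
    have hI₁ne : I₁.Nonempty := by
      obtain ⟨x, hxN, hxK⟩ := SetLike.exists_of_lt hKN
      have hxK' : ¬ ∀ i ∈ s, ∀ a : A i, x • a = a := hxK
      push Not at hxK'
      obtain ⟨i, hi, a, ha⟩ := hxK'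
      exact ⟨i, Finset.mem_filter.mpr ⟨hi, x, hxN, a, ha⟩⟩
    have hI₀ss : I₀ ⊂ s := by
      refine Finset.ssubset_iff_subset_ne.mpr ⟨Finset.filter_subset _ _, ?_⟩
      intro h
      obtain ⟨i, hi⟩ := hI₁ne
      have hi1 := Finset.mem_filter.mp hi
      have : i ∈ I₀ := by rw [h]; exact hi1.1
      exact (Finset.mem_filter.mp this).2 hi1.2
    obtain ⟨h, hh⟩ := ih I₀ hI₀ss
    -- free action on `I₁`
    have hfree : ∀ i ∈ I₁, ∀ a : A i, (∀ x ∈ N, x • a = a) → a = 0 := by
      intro i hi a ha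
      obtain ⟨his, x, hx, b, hb⟩ := Finset.mem_filter.mp hi
      rcases hirr i (fixN (G := G) (B := A i) N) (fun g a ha => fixN_invariant N g a ha) with h0 | h1
      · have : a ∈ fixN (G := G) (B := A i) N := ha
        rw [h0] at this
        exact this
      · exfalso
        have : b ∈ fixN (G := G) (B := A i) N := by rw [h1]; trivial
        exact hb (this x hx)
    have hqp : q ≠ p := by
      rintro rfl
      obtain ⟨i, hi⟩ := hI₁ne
      have his := (Finset.mem_filter.mp hi).1
      obtain ⟨g, a, hga⟩ := hnt i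
      have hnontriv : Nontrivial (A i) := by
        by_contra hcon
        rw [not_nontrivial_iff_subsingleton] at hcon
        exact hga (Subsingleton.elim _ _)
      obtain ⟨a, ha0, ha⟩ := exists_fixed_of_pow (G := G) (hp i) hnontriv N
        (fun x hx a => hexp x hx i his a)
      exact ha0 (hfree i hi a ha)
    -- the bound from `lemma_E`
    let _ : Fintype N := Fintype.ofFinite _
    have hE : ∀ i ∈ I₁, ∏ b : N, (Nat.card {a : A i // (h * b) • a = a}) ^ 2 ≤
        Nat.card (A i) ^ Nat.card N := by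
      intro i hi
      have his := (Finset.mem_filter.mp hi).1
      refine hE i hqp N ?_ (fun x hx a => hexp x hx i his a) (hfree i hi) h
      intro x hx y hy a
      have h1 := hab x hx y hy i his ((y * x) • a)
      rw [← mul_smul] at h1
      rw [← h1]
      congr 1
      group
    have hprod : ∏ b : N, (∏ i ∈ I₁, Nat.card {a : A i // (h * b) • a = a}) ^ 2 ≤
        (∏ i ∈ I₁, Nat.card (A i)) ^ Nat.card N := by
      calc ∏ b : N, (∏ i ∈ I₁, Nat.card {a : A i // (h * b) • a = a}) ^ 2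
          = ∏ i ∈ I₁, ∏ b : N, (Nat.card {a : A i // (h * b) • a = a}) ^ 2 := by
            rw [Finset.prod_comm]
            refine Finset.prod_congr rfl fun b _ => ?_
            rw [Finset.prod_pow]
        _ ≤ ∏ i ∈ I₁, Nat.card (A i) ^ Nat.card N := Finset.prod_le_prod' hE
        _ = (∏ i ∈ I₁, Nat.card (A i)) ^ Nat.card N := Finset.prod_pow _ _ _
    have hex : ∃ b : N, (∏ i ∈ I₁, Nat.card {a : A i // (h * b) • a = a}) ^ 2 ≤
        ∏ i ∈ I₁, Nat.card (A i) := by
      by_contra hcon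
      push Not at hcon
      have hlt : ∏ _b : N, ∏ i ∈ I₁, Nat.card (A i) <
          ∏ b : N, (∏ i ∈ I₁, Nat.card {a : A i // (h * b) • a = a}) ^ 2 := by
        refine Finset.prod_lt_prod_of_nonempty (fun _ _ => ?_) (fun b _ => hcon b) Finset.univ_nonempty
        exact Finset.prod_pos fun i _ => Nat.card_pos
      rw [Finset.prod_const, Finset.card_univ, ← Nat.card_eq_fintype_card] at hlt
      exact absurd hprod (not_le.mpr hlt)
    obtain ⟨b, hb⟩ := hex
    refine ⟨h * b, ?_⟩
    have hsplit : ∀ f : ι → ℕ, ∏ i ∈ s, f i = (∏ i ∈ I₁, f i) * ∏ i ∈ I₀, f i := by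
      intro f
      exact (Finset.prod_filter_mul_prod_filter_not s _ f).symm
    have hI₀eq : ∀ i ∈ I₀, Nat.card {a : A i // (h * b) • a = a} = Nat.card {a : A i // h • a = a} := by
      intro i hi
      have hnot := (Finset.mem_filter.mp hi).2
      push Not at hnot
      refine Nat.card_congr (Equiv.subtypeEquivRight fun a => ?_)
      rw [mul_smul, hnot b b.2 a]
    rw [hsplit, hsplit (fun i => Nat.card (A i)), mul_pow, Finset.prod_congr rfl hI₀eq]
    exact Nat.mul_le_mul hb hh

end Cfsg.Agent.Lib.S4994
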