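import Mathlib

set_option autoImplicit false

/-! S4994 piece E2: a system of orthogonal projections permuted by an automorphism `x`. -/

namespace Cfsg.Agent.Lib.S4994

universe u

section
variable {A J : Type u} [AddCommGroup A] [Fintype J] (π : J → A →+ A)

theorem proj_idem (hsum : ∀ v, ∑ j, π j v = v) (horth : ∀ j k, j ≠ k → ∀ v, π j (π k v) = 0)
    (j : J) (v : A) : π j (π j v) = π j v := by
  classical
  conv_rhs => rw [← hsum v]
  rw [map_sum, Finset.sum_eq_single j]
  · intro k _ hk
    exact horth j k (Ne.symm hk) v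
  · intro h
    exact absurd (Finset.mem_univ j) h

end

theorem card_eq_prod_range {A J : Type u} [AddCommGroup A] [Finite A] [Fintype J] (π : J → A →+ A)
    (hsum : ∀ v, ∑ j, π j v = v) (horth : ∀ j k, j ≠ k → ∀ v, π j (π k v) = 0) :
    Nat.card A = ∏ j, Nat.card (π j).range := by
  classical
  have hid := proj_idem π hsum horth
  let e : A ≃ ∀ j, (π j).range :=
    { toFun := fun v j => ⟨π j v, ⟨v, rfl⟩⟩
      invFun := fun f => ∑ j, (f j : A)
      left_inv := fun v => hsum v
      right_inv := by
        intro f
        funext j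
        apply Subtype.ext
        show π j (∑ k, (f k : A)) = f j
        rw [map_sum, Finset.sum_eq_single j]
        · obtain ⟨w, hw⟩ := (f j).2
          rw [← hw, hid]
        · intro k _ hk
          obtain ⟨w, hw⟩ := (f k).2
          rw [← hw]
          exact horth j k (Ne.symm hk) w
        · intro h
          exact absurd (Finset.mem_univ j) h }
  rw [Nat.card_congr e, Nat.card_pi]

open Classical in
theorem perm_bound {A J : Type u} [AddCommGroup A] [Finite A] [Fintype J] (π : J → A →+ A)
    (hsum : ∀ v, ∑ j, π j v = v) (horth : ∀ j k, j ≠ k → ∀ v, π j (π k v) = 0)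
    (σ : Equiv.Perm J) (x : A ≃+ A) (hx : ∀ j v, π (σ j) (x v) = x (π j v)) :
    (Nat.card {v : A // x v = v}) ^ 2 ≤
      ∏ j, if σ j = j then (Nat.card {v : A // v ∈ (π j).range ∧ x v = v}) ^ 2
        else Nat.card (π j).range := by
  have hstep : ∀ j, Nat.card (π j).range = Nat.card (π (σ j)).range := by
    intro j
    refine Nat.card_congr (x.toEquiv.subtypeEquiv ?_)
    intro a
    constructor
    · rintro ⟨v, rfl⟩
      exact ⟨x v, hx j v⟩
    · rintro ⟨w, hw⟩
      refine ⟨x.symm w, x.injective ?_⟩
      rw [← hx j, x.apply_symm_apply]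
      exact hw
  have hpow : ∀ (n : ℕ) j, Nat.card (π ((σ ^ n) j)).range = Nat.card (π j).range := by
    intro n j
    induction n with
    | zero => simp
    | succ n ih => rw [pow_succ', Equiv.Perm.mul_apply, ← hstep, ih]
  have hdet : ∀ (v w : A), x v = v → x w = w → ∀ r : J, π r v = π r w →
      ∀ n : ℕ, π ((σ ^ n) r) v = π ((σ ^ n) r) w := by
    intro v w hv hw r h n
    induction n with
    | zero => simpa using h
    | succ n ih =>
      rw [pow_succ', Equiv.Perm.mul_apply]
      have h1 := hx ((σ ^ n) r) v
      have h2 := hx ((σ ^ n) r) w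
      rw [hv] at h1
      rw [hw] at h2
      rw [h1, h2, ih]
  let S := Equiv.Perm.SameCycle.setoid σ
  let Q := Quotient S
  letI : Fintype Q := Fintype.ofFinite Q
  let mk : J → Q := fun j => Quotient.mk S j
  have hmk : ∀ c : Q, mk (Quotient.out c) = c := fun c => Quotient.out_eq c
  have hrep : ∀ (c : Q) (j : J), mk j = c → ∃ n : ℕ, (σ ^ n) (Quotient.out c) = j := by
    intro c j hj
    have h1 : mk (Quotient.out c) = mk j := (hmk c).trans hj.symm
    have h2 : Equiv.Perm.SameCycle σ (Quotient.out c) j := Quotient.exact h1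
    obtain ⟨n, -, hn⟩ := h2.exists_pow_eq'
    exact ⟨n, hn⟩
  let T : Q → Type u := fun c =>
    {v : A // v ∈ (π (Quotient.out c)).range ∧ (σ (Quotient.out c) = Quotient.out c → x v = v)}
  let Φ : {v : A // x v = v} → ∀ c, T c := fun v c =>
    ⟨π (Quotient.out c) v.1, ⟨v.1, rfl⟩, fun hc => by
      have h := hx (Quotient.out c) v.1
      rw [hc, v.2] at h
      exact h.symm⟩
  have hΦ : Function.Injective Φ := by
    intro v w h
    apply Subtype.ext
    have hall : ∀ j, π j v.1 = π j w.1 := by
      intro j
      obtain ⟨n, hn⟩ := hrep (mk j) j rfl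
      have h1 : π (Quotient.out (mk j)) v.1 = π (Quotient.out (mk j)) w.1 :=
        congrArg Subtype.val (congrFun h (mk j))
      rw [← hn]
      exact hdet v.1 w.1 v.2 w.2 _ h1 n
    rw [← hsum v.1, ← hsum w.1]
    exact Finset.sum_congr rfl fun j _ => hall j
  have hcard : Nat.card {v : A // x v = v} ≤ ∏ c, Nat.card (T c) := by
    rw [← Nat.card_pi]
    exact Nat.card_le_card_of_injective Φ hΦ
  let M : J → ℕ := fun j => if σ j = j then (Nat.card {v : A // v ∈ (π j).range ∧ x v = v}) ^ 2
        else Nat.card (π j).range
  have hfib : ∀ c : Q, (Nat.card (T c)) ^ 2 ≤ ∏ j ∈ Finset.univ.filter (fun j => mk j = c), M j := by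
    intro c
    set r := Quotient.out c with hr
    by_cases hc : σ r = r
    · have hfilter : Finset.univ.filter (fun j => mk j = c) = {r} := by
        ext j
        simp only [Finset.mem_filter, Finset.mem_univ, true_and, Finset.mem_singleton]
        constructor
        · intro hj
          obtain ⟨n, hn⟩ := hrep c j hj
          rw [← hn]
          exact Equiv.Perm.pow_apply_eq_self_of_apply_eq_self hc n
        · rintro rfl
          exact hmk c
      rw [hfilter, Finset.prod_singleton]
      show _ ≤ if σ r = r then _ else _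
      rw [if_pos hc]
      refine le_of_eq ?_
      congr 1
      refine Nat.card_congr (Equiv.subtypeEquivRight fun v => ?_)
      constructor
      · rintro ⟨h1, h2⟩
        exact ⟨h1, h2 hc⟩
      · rintro ⟨h1, h2⟩
        exact ⟨h1, fun _ => h2⟩
    · have hTcard : Nat.card (T c) = Nat.card (π r).range := by
        refine Nat.card_congr (Equiv.subtypeEquivRight fun v => ?_)
        constructor
        · rintro ⟨h1, _⟩
          exact h1
        · intro h1
          exact ⟨h1, fun h => absurd h hc⟩
      have hM : ∀ j ∈ Finset.univ.filter (fun j => mk j = c), M j = Nat.card (π r).range := by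
        intro j hj
        have hj' : mk j = c := (Finset.mem_filter.mp hj).2
        obtain ⟨n, hn⟩ := hrep c j hj'
        have hne : σ j ≠ j := by
          intro hfix
          obtain ⟨m, hm⟩ := hrep (mk j) j rfl
          have h1 : Equiv.Perm.SameCycle σ j r := by
            have : mk j = mk r := hj'.trans (hmk c).symm
            exact Quotient.exact this
          obtain ⟨k, -, hk⟩ := h1.exists_pow_eq'
          rw [Equiv.Perm.pow_apply_eq_self_of_apply_eq_self hfix k] at hk
          rw [← hk] at hc
          exact hc hfix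
        show (if σ j = j then _ else _) = _
        rw [if_neg hne, ← hn]
        exact hpow n r
      rw [Finset.prod_congr rfl hM, Finset.prod_const, hTcard]
      have hpos : 0 < Nat.card (π r).range := Nat.card_pos
      refine Nat.pow_le_pow_right hpos ?_
      have h2 : 1 < (Finset.univ.filter (fun j => mk j = c)).card := by
        refine Finset.one_lt_card.mpr ⟨r, ?_, σ r, ?_, Ne.symm hc⟩
        · exact Finset.mem_filter.mpr ⟨Finset.mem_univ _, hmk c⟩
        · refine Finset.mem_filter.mpr ⟨Finset.mem_univ _, ?_⟩
          have h3 : mk (σ r) = mk r :=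
            Quotient.sound (Equiv.Perm.sameCycle_apply_left.mpr (Equiv.Perm.SameCycle.refl σ r))
          exact h3.trans (hmk c)
      omega
  calc (Nat.card {v : A // x v = v}) ^ 2 ≤ (∏ c, Nat.card (T c)) ^ 2 := Nat.pow_le_pow_left hcard 2
    _ = ∏ c, (Nat.card (T c)) ^ 2 := (Finset.prod_pow _ _ _).symm
    _ ≤ ∏ c, ∏ j ∈ Finset.univ.filter (fun j => mk j = c), M j :=
        Finset.prod_le_prod (fun _ _ => Nat.zero_le _) (fun c _ => hfib c)
    _ = ∏ j, M j := Finset.prod_fiberwise Finset.univ mk M

end Cfsg.Agent.Lib.S4994
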