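import Mathlib

set_option autoImplicit false

/-! S4994, piece E1: the `q`-core bound on fixed points of `y T ^ j`. -/

namespace Cfsg.Agent.Lib.S4994

universe u

namespace QCoreAux

variable {W : Type u} [AddCommGroup W]

theorem pow_fix_zero {q : ℕ} (hq : q.Prime) {T : AddMonoid.End W} (hT : T ^ q = 1)
    (hfpf : ∀ w, T w = w → w = 0) {i : ℕ} (hi : ¬ q ∣ i) {v : W} (hv : (T ^ i) v = v) : v = 0 := by
  have hcop : Nat.Coprime i q := ((Nat.Prime.coprime_iff_not_dvd hq).2 hi).symm
  obtain ⟨m, _, hm⟩ := Nat.exists_mul_mod_eq_one_of_coprime hcop hq.one_lt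
  have h1 : ∀ n : ℕ, ((T ^ i) ^ n) v = v := by
    intro n
    induction n with
    | zero => rfl
    | succ n ih =>
      rw [pow_succ]
      show ((T ^ i) ^ n) ((T ^ i) v) = v
      rw [hv, ih]
  have h2 : T ^ (i * m) = T := by
    conv_lhs => rw [← Nat.div_add_mod (i * m) q, hm]
    rw [pow_add, pow_mul, hT, one_pow, one_mul, pow_one]
  have h3 := h1 m
  rw [← pow_mul, h2] at h3
  exact hfpf v h3

theorem pow_eq_pow_zero {q : ℕ} (hq : q.Prime) {T : AddMonoid.End W} (hT : T ^ q = 1)
    (hfpf : ∀ w, T w = w → w = 0) {a b : ℕ} (hab : ¬ a ≡ b [MOD q]) {v : W}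
    (h : (T ^ a) v = (T ^ b) v) : v = 0 := by
  have hq1 : (q - 1) + 1 = q := Nat.sub_add_cancel hq.one_lt.le
  have ha : (q - 1) * a + a = q * a := by
    conv_rhs => rw [← hq1]
    ring
  have hcomp : ∀ s t : ℕ, (T ^ s) ((T ^ t) v) = (T ^ (s + t)) v := by
    intro s t
    rw [pow_add]
    rfl
  refine pow_fix_zero hq hT hfpf (i := (q - 1) * a + b) ?_ ?_
  · intro hdvd
    apply hab
    have h1 : (q - 1) * a + a ≡ (q - 1) * a + b [MOD q] := by
      have h2 : (q - 1) * a + a ≡ 0 [MOD q] := by
        rw [ha]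
        exact (Nat.modEq_zero_iff_dvd).2 (dvd_mul_right _ _)
      have h3 : (q - 1) * a + b ≡ 0 [MOD q] := (Nat.modEq_zero_iff_dvd).2 hdvd
      exact h2.trans h3.symm
    exact Nat.ModEq.add_left_cancel' _ h1
  · rw [← hcomp, ← h, hcomp, ha, pow_mul, hT, one_pow]
    rfl

theorem indep {q : ℕ} (hq : q.Prime) {y T : AddMonoid.End W} (hT : T ^ q = 1)
    (hfpf : ∀ w, T w = w → w = 0) (hcomm : y * T = T * y) (S : Finset (Fin q))
    (c : Fin q → W) (hc : ∀ i ∈ S, (y * T ^ (i : ℕ)) (c i) = c i)
    (h0 : ∑ i ∈ S, c i = 0) : ∀ i ∈ S, c i = 0 := by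
  classical
  have hcommp : ∀ n : ℕ, y * T ^ n = T ^ n * y := fun n =>
    (Commute.pow_right (show Commute y T from hcomm) n).eq
  induction S using Finset.induction_on generalizing c with
  | empty => simp
  | insert j S hj ih =>
    rw [Finset.sum_insert hj] at h0
    have hcj := hc j (Finset.mem_insert_self _ _)
    have h1 : (y * T ^ (j : ℕ)) (c j + ∑ i ∈ S, c i) = 0 := by rw [h0, map_zero]
    rw [map_add, hcj, map_sum] at h1
    have h2 : ∑ i ∈ S, ((y * T ^ (j : ℕ)) (c i) - c i) = 0 := by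
      rw [Finset.sum_sub_distrib]
      have e1 := eq_neg_of_add_eq_zero_right h1
      have e2 := eq_neg_of_add_eq_zero_right h0
      rw [e1, e2, sub_self]
    have hswap : ∀ a b : ℕ, (y * T ^ a) * (y * T ^ b) = (y * T ^ b) * (y * T ^ a) := by
      intro a b
      calc (y * T ^ a) * (y * T ^ b) = y * (T ^ a * y) * T ^ b := by simp only [mul_assoc]
        _ = y * (y * T ^ a) * T ^ b := by rw [hcommp a]
        _ = y * y * (T ^ a * T ^ b) := by simp only [mul_assoc]
        _ = y * y * (T ^ b * T ^ a) := by rw [← pow_add, ← pow_add, add_comm]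
        _ = y * (y * T ^ b) * T ^ a := by simp only [mul_assoc]
        _ = y * (T ^ b * y) * T ^ a := by rw [hcommp b]
        _ = (y * T ^ b) * (y * T ^ a) := by simp only [mul_assoc]
    have h3 := ih (fun i => (y * T ^ (j : ℕ)) (c i) - c i)
      (by
        intro i hi
        have hci := hc i (Finset.mem_insert_of_mem hi)
        show (y * T ^ (i : ℕ)) ((y * T ^ (j : ℕ)) (c i) - c i) = (y * T ^ (j : ℕ)) (c i) - c i
        rw [map_sub, hci]
        congr 1
        have := congrArg (fun f : AddMonoid.End W => f (c i)) (hswap (i : ℕ) (j : ℕ))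
        have e : ((y * T ^ (i : ℕ)) * (y * T ^ (j : ℕ))) (c i) =
            ((y * T ^ (j : ℕ)) * (y * T ^ (i : ℕ))) (c i) := this
        calc (y * T ^ (i : ℕ)) ((y * T ^ (j : ℕ)) (c i))
            = ((y * T ^ (i : ℕ)) * (y * T ^ (j : ℕ))) (c i) := rfl
          _ = ((y * T ^ (j : ℕ)) * (y * T ^ (i : ℕ))) (c i) := e
          _ = (y * T ^ (j : ℕ)) ((y * T ^ (i : ℕ)) (c i)) := rfl
          _ = (y * T ^ (j : ℕ)) (c i) := by rw [hci])
      h2
    have h4 : ∀ i ∈ S, c i = 0 := by
      intro i hi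
      have hci := hc i (Finset.mem_insert_of_mem hi)
      have hcji : (y * T ^ (j : ℕ)) (c i) = c i := sub_eq_zero.1 (h3 i hi)
      have hne : (i : ℕ) ≠ (j : ℕ) := by
        intro h
        apply hj
        rwa [← Fin.ext h]
      have hnm : ¬ (j : ℕ) ≡ (i : ℕ) [MOD q] := by
        intro hm
        apply hne
        have := Nat.ModEq.eq_of_lt_of_lt hm j.2 i.2
        exact this.symm
      refine pow_eq_pow_zero hq hT hfpf hnm ?_
      -- `T^i (y T^j) c = T^i c` and `T^i (y T^j) = T^j (y T^i)`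
      have e1 : T ^ (i : ℕ) * (y * T ^ (j : ℕ)) = T ^ (j : ℕ) * (y * T ^ (i : ℕ)) := by
        calc T ^ (i : ℕ) * (y * T ^ (j : ℕ)) = (T ^ (i : ℕ) * y) * T ^ (j : ℕ) := by
              simp only [mul_assoc]
          _ = y * T ^ (i : ℕ) * T ^ (j : ℕ) := by rw [hcommp]
          _ = y * (T ^ (j : ℕ) * T ^ (i : ℕ)) := by
              rw [mul_assoc, ← pow_add, ← pow_add, add_comm]
          _ = (y * T ^ (j : ℕ)) * T ^ (i : ℕ) := by simp only [mul_assoc]
          _ = (T ^ (j : ℕ) * y) * T ^ (i : ℕ) := by rw [hcommp]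
          _ = T ^ (j : ℕ) * (y * T ^ (i : ℕ)) := by simp only [mul_assoc]
      have e2 := congrArg (fun f : AddMonoid.End W => f (c i)) e1
      have e3 : (T ^ (i : ℕ)) ((y * T ^ (j : ℕ)) (c i)) = (T ^ (j : ℕ)) ((y * T ^ (i : ℕ)) (c i)) := e2
      rw [hcji, hci] at e3
      exact e3.symm
    have h5 : c j = 0 := by
      rw [Finset.sum_eq_zero h4, add_zero] at h0
      exact h0
    intro i hi
    rcases Finset.mem_insert.1 hi with rfl | hi
    · exact h5
    · exact h4 i hi

end QCoreAux

open QCoreAux in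
theorem qcore {W : Type u} [AddCommGroup W] [Finite W] {p q : ℕ} [Fact p.Prime] [Fact q.Prime]
    (hqp : q ≠ p) (hW : ∀ w : W, p • w = 0) (y T : AddMonoid.End W) (hT : T ^ q = 1)
    (hfpf : ∀ w, T w = w → w = 0) (k : ℕ) (hyT : y * T = T ^ k * y) :
    ∏ j ∈ Finset.range q, (Nat.card {w : W // (y * T ^ j) w = w}) ^ 2 ≤ Nat.card W ^ q := by
  classical
  have hq : q.Prime := Fact.out
  by_cases hk : k ≡ 1 [MOD q]
  · -- commuting case
    have hTk : T ^ k = T := by
      have hk1 : k % q = 1 := by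
        have : k % q = 1 % q := hk
        rwa [Nat.mod_eq_of_lt hq.one_lt] at this
      conv_lhs => rw [← Nat.div_add_mod k q, hk1]
      rw [pow_add, pow_mul, hT, one_pow, one_mul, pow_one]
    have hcomm : y * T = T * y := by rw [hyT, hTk]
    let Φ : (∀ j : Fin q, {w : W // (y * T ^ (j : ℕ)) w = w}) → W := fun u => ∑ j, (u j).1
    have hinj : Function.Injective Φ := by
      intro u u' h
      have hsum : ∑ j : Fin q, ((u j).1 - (u' j).1) = 0 := by
        rw [Finset.sum_sub_distrib]
        exact sub_eq_zero.2 h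
      have key := indep hq hT hfpf hcomm Finset.univ (fun j => (u j).1 - (u' j).1)
        (by
          intro i _
          show (y * T ^ (i : ℕ)) ((u i).1 - (u' i).1) = (u i).1 - (u' i).1
          rw [map_sub, (u i).2, (u' i).2])
        hsum
      funext j
      exact Subtype.ext (sub_eq_zero.1 (key j (Finset.mem_univ j)))
    have h1 := Nat.card_le_card_of_injective Φ hinj
    rw [Nat.card_pi] at h1
    rw [Finset.prod_range (fun j => (Nat.card {w : W // (y * T ^ j) w = w}) ^ 2), Finset.prod_pow]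
    have hpos : 0 < Nat.card W := Nat.card_pos
    calc (∏ j : Fin q, Nat.card {w : W // (y * T ^ (j : ℕ)) w = w}) ^ 2
        ≤ Nat.card W ^ 2 := Nat.pow_le_pow_left h1 2
      _ ≤ Nat.card W ^ q := Nat.pow_le_pow_right hpos hq.two_le
  · -- non-commuting case
    have hj : ∀ j : ℕ, (Nat.card {w : W // (y * T ^ j) w = w}) ^ 2 ≤ Nat.card W := by
      intro j
      have hq1 : (q - 1) + 1 = q := Nat.sub_add_cancel hq.one_lt.le
      have hTT : T * T ^ (q - 1) = 1 := by
        rw [← pow_succ', hq1, hT]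
      have hstep : y * T ^ j * T = T ^ k * (y * T ^ j) := by
        calc y * T ^ j * T = y * (T ^ j * T) := by rw [mul_assoc]
          _ = y * (T * T ^ j) := by rw [← pow_succ, ← pow_succ']
          _ = (y * T) * T ^ j := by rw [mul_assoc]
          _ = T ^ k * y * T ^ j := by rw [hyT]
          _ = T ^ k * (y * T ^ j) := by rw [mul_assoc]
      let Φ : {w : W // (y * T ^ j) w = w} × {w : W // (y * T ^ j) w = w} → W :=
        fun u => u.1.1 - (T ^ (q - 1)) u.2.1
      have hinj : Function.Injective Φ := by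
        rintro ⟨a, b⟩ ⟨a', b'⟩ h
        have h' : a.1 - (T ^ (q - 1)) b.1 = a'.1 - (T ^ (q - 1)) b'.1 := h
        set v : W := a.1 - a'.1 with hv
        set t : W := b.1 - b'.1 with ht
        have hvt : v = (T ^ (q - 1)) t := by
          rw [hv, ht, map_sub]
          have := sub_eq_sub_iff_sub_eq_sub.1 h'
          exact this
        have hTv : T v = t := by
          rw [hvt]
          have := congrArg (fun f : AddMonoid.End W => f t) hTT
          exact this
        have hvfix : (y * T ^ j) v = v := by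
          rw [hv, map_sub, a.2, a'.2]
        have htfix : (y * T ^ j) t = t := by
          rw [ht, map_sub, b.2, b'.2]
        have e := congrArg (fun f : AddMonoid.End W => f v) hstep
        have e' : (y * T ^ j) (T v) = (T ^ k) ((y * T ^ j) v) := e
        rw [hvfix, hTv, htfix, ← hTv] at e'
        have hv0 : v = 0 := by
          refine pow_eq_pow_zero hq hT hfpf (a := 1) (b := k) (fun hm => hk hm.symm) ?_
          rw [pow_one]
          exact e'
        have ht0 : t = 0 := by rw [← hTv, hv0, map_zero]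
        have h1 : a = a' := Subtype.ext (sub_eq_zero.1 hv0)
        have h2 : b = b' := Subtype.ext (sub_eq_zero.1 ht0)
        rw [h1, h2]
      have h1 := Nat.card_le_card_of_injective Φ hinj
      rw [Nat.card_prod, ← pow_two] at h1
      exact h1
    calc ∏ j ∈ Finset.range q, (Nat.card {w : W // (y * T ^ j) w = w}) ^ 2
        ≤ ∏ _j ∈ Finset.range q, Nat.card W :=
          Finset.prod_le_prod (fun _ _ => Nat.zero_le _) (fun j _ => hj j)
      _ = Nat.card W ^ q := by rw [Finset.prod_const, Finset.card_range]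

end Cfsg.Agent.Lib.S4994
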