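import Mathlib
import Cfsg.Agent.Lib.S4994.Defs

set_option autoImplicit false

/-! S4994 piece S: from the abstract module statement to chief sections of `G`. -/

namespace Cfsg.Agent.Lib.S4994

universe u

variable {G : Type u} [Group G]

namespace SectionsAux

/-- The section `M / L` as a subgroup of `G / L`. -/
abbrev Sec (L M : Subgroup G) [L.Normal] : Subgroup (G ⧸ L) := M.map (QuotientGroup.mk' L)

theorem card_sec (L K : Subgroup G) [L.Normal] [Finite G] : Nat.card (Sec L K) = L.relIndex K := by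
  let φ : K →* G ⧸ L := (QuotientGroup.mk' L).comp K.subtype
  have hker : φ.ker = L.subgroupOf K := by
    ext x
    simp [φ, MonoidHom.mem_ker, Subgroup.mem_subgroupOf, QuotientGroup.eq_one_iff]
  have hrange : φ.range = Sec L K := by
    rw [MonoidHom.range_comp, Subgroup.range_subtype]
  rw [Subgroup.relIndex, ← hker, Subgroup.index, ← hrange]
  exact (Nat.card_congr (QuotientGroup.quotientKerEquivRange φ).toEquiv).symm

/-- Commutativity of the section. -/
@[reducible] def secComm (L M : Subgroup G) [L.Normal]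
    (hab : ∀ x ∈ M, ∀ y ∈ M, x * y * x⁻¹ * y⁻¹ ∈ L) : CommGroup (Sec L M) :=
  { (inferInstance : Group (Sec L M)) with
    mul_comm := by
      rintro ⟨_, x, hx, rfl⟩ ⟨_, y, hy, rfl⟩
      apply Subtype.ext
      show (QuotientGroup.mk x : G ⧸ L) * QuotientGroup.mk y = QuotientGroup.mk y * QuotientGroup.mk x
      rw [← QuotientGroup.mk_mul, ← QuotientGroup.mk_mul, QuotientGroup.eq]
      have h := hab y⁻¹ (M.inv_mem hy) x⁻¹ (M.inv_mem hx)
      have h2 : (x * y)⁻¹ * (y * x) = y⁻¹ * x⁻¹ * y⁻¹⁻¹ * x⁻¹⁻¹ := by group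
      rw [h2]
      exact h }

theorem conj_mem_sec (L M : Subgroup G) [L.Normal] [hM : M.Normal] (g : G) (a : Sec L M) :
    (g : G ⧸ L) * (a : G ⧸ L) * (g : G ⧸ L)⁻¹ ∈ Sec L M := by
  obtain ⟨_, x, hx, rfl⟩ := a
  exact ⟨g * x * g⁻¹, hM.conj_mem x hx g, rfl⟩

/-- Conjugation action on the (additive) section. -/
@[reducible] def secAct (L M : Subgroup G) [L.Normal] [hM : M.Normal]
    (hab : ∀ x ∈ M, ∀ y ∈ M, x * y * x⁻¹ * y⁻¹ ∈ L) :
    letI := secComm L M hab
    DistribMulAction G (Additive (Sec L M)) :=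
  letI := secComm L M hab
  { smul := fun g a => Additive.ofMul ⟨(g : G ⧸ L) * (a.toMul : G ⧸ L) * (g : G ⧸ L)⁻¹,
      conj_mem_sec L M g a.toMul⟩
    one_smul := by
      intro a
      apply Additive.toMul.injective
      apply Subtype.ext
      show ((1 : G) : G ⧸ L) * (a.toMul : G ⧸ L) * ((1 : G) : G ⧸ L)⁻¹ = _
      simp
    mul_smul := by
      intro g h a
      apply Additive.toMul.injective
      apply Subtype.ext
      show ((g * h : G) : G ⧸ L) * (a.toMul : G ⧸ L) * ((g * h : G) : G ⧸ L)⁻¹ =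
        (g : G ⧸ L) * ((h : G ⧸ L) * (a.toMul : G ⧸ L) * (h : G ⧸ L)⁻¹) * (g : G ⧸ L)⁻¹
      rw [QuotientGroup.mk_mul]
      group
    smul_zero := by
      intro g
      apply Additive.toMul.injective
      apply Subtype.ext
      show (g : G ⧸ L) * 1 * (g : G ⧸ L)⁻¹ = 1
      simp
    smul_add := by
      intro g a b
      apply Additive.toMul.injective
      apply Subtype.ext
      show (g : G ⧸ L) * ((a.toMul : G ⧸ L) * (b.toMul : G ⧸ L)) * (g : G ⧸ L)⁻¹ =
        ((g : G ⧸ L) * (a.toMul : G ⧸ L) * (g : G ⧸ L)⁻¹) *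
          ((g : G ⧸ L) * (b.toMul : G ⧸ L) * (g : G ⧸ L)⁻¹)
      group }

end SectionsAux

open SectionsAux in
theorem group_lemma_sections_of [Finite G] (p : ℕ) [Fact p.Prime]
    {ι : Type} [Fintype ι]
    (hmod : ∀ (A : ι → Type u) [∀ i, AddCommGroup (A i)] [∀ i, Finite (A i)]
      [∀ i, DistribMulAction G (A i)], (∀ i, ∀ a : A i, p • a = 0) →
      (∀ i, ∀ S : AddSubgroup (A i), (∀ g : G, ∀ a ∈ S, g • a ∈ S) → S = ⊥ ∨ S = ⊤) →
      (∀ i, ∃ g : G, ∃ a : A i, g • a ≠ a) →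
      ∃ g : G, (∏ i, Nat.card {a : A i // g • a = a}) ^ 2 ≤ ∏ i, Nat.card (A i))
    (L M : ι → Subgroup G) [∀ i, (L i).Normal] [∀ i, (M i).Normal]
    (hLM : ∀ i, L i < M i)
    (hchief : ∀ i, ∀ K : Subgroup G, K.Normal → L i ≤ K → K ≤ M i → K = L i ∨ K = M i)
    (hab : ∀ i, ∀ x ∈ M i, ∀ y ∈ M i, x * y * x⁻¹ * y⁻¹ ∈ L i)
    (hexp : ∀ i, ∀ x ∈ M i, x ^ p ∈ L i)
    (hnc : ∀ i, ∃ g : G, ∃ x ∈ M i, g * x * g⁻¹ * x⁻¹ ∉ L i) :
    ∃ g : G, (∏ i, (L i).relIndex (relCent (L i) (M i) g)) ^ 2 ≤ ∏ i, (L i).relIndex (M i) := by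
  classical
  let A : ι → Type u := fun i => Additive (Sec (L i) (M i))
  letI instC : ∀ i, CommGroup (Sec (L i) (M i)) := fun i => secComm (L i) (M i) (hab i)
  letI instA : ∀ i, AddCommGroup (A i) := fun i => inferInstanceAs (AddCommGroup (Additive (Sec (L i) (M i))))
  letI instF : ∀ i, Finite (A i) := fun i => Finite.of_equiv (Sec (L i) (M i)) Additive.ofMul
  letI instD : ∀ i, DistribMulAction G (A i) := fun i => secAct (L i) (M i) (hab i)
  have hsmul : ∀ i (g : G) (a : A i), (((g • a : A i).toMul : Sec (L i) (M i)) : G ⧸ L i) =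
      (g : G ⧸ L i) * ((a.toMul : Sec (L i) (M i)) : G ⧸ L i) * (g : G ⧸ L i)⁻¹ := fun _ _ _ => rfl
  have hmkA : ∀ i (x : G), x ∈ M i → ∃ a : A i, ((a.toMul : Sec (L i) (M i)) : G ⧸ L i) = x :=
    fun i x hx => ⟨Additive.ofMul ⟨(x : G ⧸ L i), x, hx, rfl⟩, rfl⟩
  have hext : ∀ i (a b : A i), ((a.toMul : Sec (L i) (M i)) : G ⧸ L i) =
      ((b.toMul : Sec (L i) (M i)) : G ⧸ L i) → a = b :=
    fun i a b h => Additive.toMul.injective (Subtype.ext h)
  have hrep : ∀ i (a : A i), ∃ x ∈ M i, ((a.toMul : Sec (L i) (M i)) : G ⧸ L i) = x := by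
    intro i a
    obtain ⟨x, hx, hxa⟩ := (a.toMul : Sec (L i) (M i)).2
    exact ⟨x, hx, hxa.symm⟩
  have hzero : ∀ i, (((0 : A i).toMul : Sec (L i) (M i)) : G ⧸ L i) = 1 := fun _ => rfl
  have hadd : ∀ i (a b : A i), (((a + b : A i).toMul : Sec (L i) (M i)) : G ⧸ L i) =
      ((a.toMul : Sec (L i) (M i)) : G ⧸ L i) * ((b.toMul : Sec (L i) (M i)) : G ⧸ L i) :=
    fun _ _ _ => rfl
  have hneg : ∀ i (a : A i), (((-a : A i).toMul : Sec (L i) (M i)) : G ⧸ L i) =
      ((a.toMul : Sec (L i) (M i)) : G ⧸ L i)⁻¹ := fun _ _ => rfl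
  have hnsmul : ∀ i (a : A i) (n : ℕ), (((n • a : A i).toMul : Sec (L i) (M i)) : G ⧸ L i) =
      ((a.toMul : Sec (L i) (M i)) : G ⧸ L i) ^ n := by
    intro i a n
    induction n with
    | zero => rw [zero_nsmul, pow_zero]; rfl
    | succ n ih => rw [succ_nsmul, pow_succ, ← ih]; rfl
  have hp : ∀ i, ∀ a : A i, p • a = 0 := by
    intro i a
    obtain ⟨x, hx, hxa⟩ := hrep i a
    apply hext
    rw [hnsmul, hxa, hzero, ← QuotientGroup.mk_pow]
    exact (QuotientGroup.eq_one_iff _).mpr (hexp i x hx)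
  have hirr : ∀ i, ∀ S : AddSubgroup (A i), (∀ g : G, ∀ a ∈ S, g • a ∈ S) → S = ⊥ ∨ S = ⊤ := by
    intro i S hS
    let K : Subgroup G :=
      { carrier := {x | ∃ a ∈ S, ((a.toMul : Sec (L i) (M i)) : G ⧸ L i) = x}
        mul_mem' := by
          rintro x y ⟨a, ha, hax⟩ ⟨b, hb, hby⟩
          exact ⟨a + b, S.add_mem ha hb, by rw [hadd, hax, hby]; rfl⟩
        one_mem' := ⟨0, S.zero_mem, by rw [hzero]; rfl⟩
        inv_mem' := by
          rintro x ⟨a, ha, hax⟩
          exact ⟨-a, S.neg_mem ha, by rw [hneg, hax]; rfl⟩ }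
    have hKmem : ∀ x, x ∈ K ↔ ∃ a ∈ S, ((a.toMul : Sec (L i) (M i)) : G ⧸ L i) = x := fun _ => Iff.rfl
    have hKn : K.Normal := by
      constructor
      rintro x ⟨a, ha, hax⟩ g
      exact ⟨g • a, hS g a ha, by rw [hsmul, hax]; rfl⟩
    have hLK : L i ≤ K := by
      intro x hx
      exact ⟨0, S.zero_mem, by rw [hzero]; exact ((QuotientGroup.eq_one_iff x).mpr hx).symm⟩
    have hKM : K ≤ M i := by
      rintro x ⟨a, ha, hax⟩
      obtain ⟨y, hy, hya⟩ := hrep i a
      have h1 : (y : G ⧸ L i) = x := hya.symm.trans hax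
      have h2 : y⁻¹ * x ∈ L i := QuotientGroup.eq.mp h1
      have h3 : x = y * (y⁻¹ * x) := by group
      rw [h3]
      exact (M i).mul_mem hy ((hLM i).le h2)
    rcases hchief i K hKn hLK hKM with h | h
    · left
      rw [eq_bot_iff]
      intro a ha
      obtain ⟨y, hy, hya⟩ := hrep i a
      have h1 : y ∈ K := ⟨a, ha, hya⟩
      rw [h] at h1
      rw [AddSubgroup.mem_bot]
      apply hext
      rw [hya, hzero]
      exact (QuotientGroup.eq_one_iff y).mpr h1
    · right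
      rw [eq_top_iff]
      intro a _
      obtain ⟨y, hy, hya⟩ := hrep i a
      have h1 : y ∈ K := by rw [h]; exact hy
      obtain ⟨b, hb, hby⟩ := h1
      have h2 : b = a := hext i b a (hby.trans hya.symm)
      rw [← h2]
      exact hb
  have hnt : ∀ i, ∃ g : G, ∃ a : A i, g • a ≠ a := by
    intro i
    obtain ⟨g, x, hx, hgx⟩ := hnc i
    obtain ⟨a, ha⟩ := hmkA i x hx
    refine ⟨g, a, fun h => hgx ?_⟩
    have h1 := congrArg (fun b : A i => ((b.toMul : Sec (L i) (M i)) : G ⧸ L i)) h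
    simp only [hsmul, ha] at h1
    have h2 : ((g * x * g⁻¹ : G) : G ⧸ L i) = (x : G ⧸ L i) := h1
    have h3 := QuotientGroup.eq.mp h2.symm
    convert (inferInstance : (L i).Normal).conj_mem _ h3 x using 1
    group
  obtain ⟨g, hg⟩ := hmod A hp hirr hnt
  refine ⟨g, ?_⟩
  have hc1 : ∀ i, Nat.card (A i) = (L i).relIndex (M i) := by
    intro i
    rw [← card_sec]
    exact Nat.card_congr Additive.toMul
  have hc2 : ∀ i, Nat.card {a : A i // g • a = a} = (L i).relIndex (relCent (L i) (M i) g) := by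
    intro i
    rw [← card_sec]
    have hfix : ∀ x : G, (((g * x * g⁻¹ : G) : G ⧸ L i) = (x : G ⧸ L i)) ↔
        g * x * g⁻¹ * x⁻¹ ∈ L i := by
      intro x
      rw [eq_comm, QuotientGroup.eq]
      constructor
      · intro h
        convert (inferInstance : (L i).Normal).conj_mem _ h x using 1
        group
      · intro h
        convert (inferInstance : (L i).Normal).conj_mem _ h x⁻¹ using 1
        group
    have hsm : ∀ (a : A i) (x : G), ((a.toMul : Sec (L i) (M i)) : G ⧸ L i) = x →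
        (g • a = a ↔ g * x * g⁻¹ * x⁻¹ ∈ L i) := by
      intro a x hax
      rw [← hfix]
      constructor
      · intro h
        have h1 := congrArg (fun b : A i => ((b.toMul : Sec (L i) (M i)) : G ⧸ L i)) h
        simp only [hsmul, hax] at h1
        exact h1
      · intro h
        apply hext
        rw [hsmul, hax]
        exact h
    refine Nat.card_congr
      { toFun := fun a => ⟨((a.1.toMul : Sec (L i) (M i)) : G ⧸ L i), ?_⟩
        invFun := fun y => ⟨Additive.ofMul ⟨y.1, ?_⟩, ?_⟩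
        left_inv := ?_
        right_inv := ?_ }
    · obtain ⟨x, hx, hxa⟩ := hrep i a.1
      refine ⟨x, mem_relCent.mpr ⟨hx, (hsm a.1 x hxa).mp a.2⟩, hxa.symm⟩
    · obtain ⟨_, x, hx, rfl⟩ := y
      exact ⟨x, (mem_relCent.mp hx).1, rfl⟩
    · obtain ⟨_, x, hx, rfl⟩ := y
      exact (hsm _ x rfl).mpr (mem_relCent.mp hx).2
    · intro a
      apply Subtype.ext
      apply hext
      rfl
    · intro y
      apply Subtype.ext
      rfl
  simpa only [hc1, hc2] using hg

end Cfsg.Agent.Lib.S4994
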